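import Cfsg.Agent.Lib.Golay.Syl24Data
import Cfsg.Agent.Lib.PGroup.Frattini
import Cfsg.Prelude.Def_Transfer

/-!
The Sylow 2-subgroup of `M24` modulo its centre.
-/

set_option autoImplicit false

namespace Cfsg.Lib.PC

open Equiv

theorem ev_append {G : Type*} [Group G] (l m : List (G × ℕ)) (e : ℕ) :
    ev (l ++ m) e = ev l (e % rad l) * ev m (e / rad l) := by
  induction l generalizing e with
  | nil => simp [ev, rad]
  | cons x l ih =>
    have : rad (x :: l) = x.2 * rad l := by simp [rad]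
    rw [List.cons_append, ev, ev, ih, this, Nat.mod_mul_right_mod, Nat.mod_mul_right_div_self,
      Nat.div_div_eq_div_mul, mul_assoc]

theorem RepL.take {α : Type*} {n : ℕ} {E : Enc α n} {k : ℕ} {cs : List (ℕ × ℕ)}
    {l : List (Perm α × ℕ)} (h : RepL E k cs l) (i : ℕ) : RepL E k (cs.take i) (l.take i) :=
  List.forall₂_take i h

theorem RepL.inH {α : Type*} {n : ℕ} {E : Enc α n} {k : ℕ} {cs : List (ℕ × ℕ)}
    {l : List (Perm α × ℕ)} (h : RepL E k cs l) : ∀ p ∈ cs.map Prod.fst, InH E k (gen l) p := by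
  induction h with
  | nil => simp
  | @cons c x cs l h _ ih =>
    intro p hp
    rw [List.map_cons, List.mem_cons] at hp
    rcases hp with rfl | hp
    · exact ⟨x.1, mem_gen_of_mem List.mem_cons_self, h.1⟩
    · exact (ih p hp).mono (gen_le_gen_cons x l)

theorem gen_drop_le {G : Type*} [Group G] (l : List (G × ℕ)) (i : ℕ) : gen (l.drop i) ≤ gen l :=
  gen_le_iff.mpr fun _ hx => mem_gen_of_mem (List.mem_of_mem_drop hx)

theorem gen_take_le {G : Type*} [Group G] (l : List (G × ℕ)) (i : ℕ) : gen (l.take i) ≤ gen l :=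
  gen_le_iff.mpr fun _ hx => mem_gen_of_mem (List.mem_of_mem_take hx)

theorem ncard_le_length_of_nrep {α : Type*} {n : ℕ} {E : Enc α n} {k : ℕ} (s : Set (Perm α))
    (L : List ℕ) (h : ∀ y ∈ s, ∃ p ∈ L, Rep E k p y) : s.ncard ≤ L.length := by
  classical
  choose f hf hf' using h
  refine le_trans ?_ L.toFinset_card_le
  rw [← Set.ncard_coe_finset, ← Nat.card_coe_set_eq, ← Nat.card_coe_set_eq]
  refine Nat.card_le_card_of_injective
    (fun y : s => (⟨f y y.2, by simpa using hf y y.2⟩ : (L.toFinset : Set ℕ))) ?_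
  intro y y' e
  have e' : f y y.2 = f y' y'.2 := congrArg Subtype.val e
  exact Subtype.ext ((hf' y y.2).unique (e' ▸ hf' y' y'.2))

/-- a subgroup `B` covered by the cosets `r e * Q`, `e ∈ I` -/
theorem card_le_card_mul_of_cosets {G : Type*} [Group G] [Finite G] (B Q : Subgroup G)
    (r : ℕ → G) (I : Finset ℕ) (h : ∀ b ∈ B, ∃ e ∈ I, ∃ q ∈ Q, b = r e * q) :
    Nat.card B ≤ I.card * Nat.card ↥(B ⊓ Q) := by
  classical
  choose κ hκ q hq e using h
  have hs : ∀ i : ℕ, ∃ b0 ∈ B, ∀ b (hb : b ∈ B), κ b hb = i → b0⁻¹ * b ∈ Q := by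
    intro i
    by_cases hi : ∃ b, ∃ hb : b ∈ B, κ b hb = i
    · obtain ⟨b0, hb0, h0⟩ := hi
      refine ⟨b0, hb0, fun b hb h1 => ?_⟩
      have : b0⁻¹ * b = (q b0 hb0)⁻¹ * q b hb := by
        conv_lhs => rw [e b0 hb0, e b hb, h0, h1]
        group
      rw [this]
      exact Q.mul_mem (Q.inv_mem (hq _ _)) (hq _ _)
    · exact ⟨1, B.one_mem, fun b hb h1 => absurd ⟨b, hb, h1⟩ hi⟩
  choose s hs hs' using hs
  have := Nat.card_le_card_of_injective (fun b : B => ((⟨κ b b.2, hκ b b.2⟩,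
    ⟨(s (κ b b.2))⁻¹ * b, B.mul_mem (B.inv_mem (hs _)) b.2, hs' _ b b.2 rfl⟩) : I × ↥(B ⊓ Q))) (by
      intro b b' hbb
      have h1 : κ b b.2 = κ b' b'.2 := congrArg (fun x => (x.1 : ℕ)) hbb
      have h2 : (s (κ b b.2))⁻¹ * b = (s (κ b' b'.2))⁻¹ * b' := congrArg (fun x => (x.2 : G)) hbb
      rw [h1, mul_right_inj] at h2
      exact Subtype.ext h2)
  simpa using this

end Cfsg.Lib.PC

namespace Cfsg.Lib.Golay

open Cfsg.Lib.PC Equiv

/-- the explicit Sylow 2-subgroup `gen l` with central involution `z` -/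
structure SylData (l : List (Perm GolayPt × ℕ)) (z : Perm GolayPt) : Prop where
  rep : RepL E 5 syl24 l
  le : gen l ≤ M24
  rz : R zc24 z

theorem exists_sylData : ∃ l z, SylData l z := by
  obtain ⟨l, hl, hle⟩ := exists_repL (E := E) (k := 5) (H := M24) syl24
    fun c hc => I_M24_list syl24_M24 _ (List.mem_map_of_mem hc)
  obtain ⟨z, -, hz⟩ := I_M24 (p := zc24) (by decide +kernel)
  exact ⟨l, z, hl, hle, hz⟩

variable {l : List (Perm GolayPt × ℕ)} {z : Perm GolayPt}

theorem SylData.pc (h : SylData l z) : IsPC l syl24cert := h.rep.isPC le32 syl24_pc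

theorem SylData.card (h : SylData l z) : Nat.card (gen l) = 1024 :=
  h.rep.card_gen le32 h.pc syl24_free

theorem SylData.cardQ (h : SylData l z) : Nat.card (gen (l.drop 3)) = 128 :=
  (h.rep.drop 3).card_gen le32 (h.pc.drop 3) syl24_free3

theorem SylData.z_mem (h : SylData l z) : z ∈ gen (l.drop 3) := by
  obtain ⟨g, hg, hr⟩ := (h.rep.drop 3).inH zc24 (by decide +kernel)
  rwa [h.rz.unique hr]

theorem SylData.nrz (h : SylData l z) : NRep E 5 zc24 z := ⟨h.rz, by decide +kernel⟩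

theorem SylData.z_ne (h : SylData l z) : z ≠ 1 := fun e =>
  absurd ((h.nrz.eq_iff (NRep.one le32)).mpr e) (by decide +kernel)

theorem SylData.z_sq (h : SylData l z) : z * z = 1 :=
  ((h.rz.ncomp h.rz).eq_iff (NRep.one le32)).mp (by decide +kernel)

theorem SylData.z_comm (h : SylData l z) {y : Perm GolayPt} (hy : y ∈ gen l) : y * z = z * y := by
  have : gen l ≤ Subgroup.centralizer {z} := by
    refine gen_le_iff.mpr fun x hx => ?_
    obtain ⟨c, hc, hr⟩ := h.rep.exists_code hx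
    have h1 : allL syl24 (fun c => Nat.beq (comp 5 24 c.1 zc24) (comp 5 24 zc24 c.1)) = true := by
      decide +kernel
    exact Subgroup.mem_centralizer_singleton_iff.mpr
      (((hr.ncomp h.rz).eq_iff (h.rz.ncomp hr)).mp ((allL_iff _ _).mp h1 c hc))
  exact Subgroup.mem_centralizer_singleton_iff.mp (this hy)

theorem SylData.mem_center (h : SylData l z) (x : gen l) :
    x ∈ Subgroup.center (gen l) ↔ x.1 = 1 ∨ x.1 = z := by
  rw [Subgroup.mem_center_iff]
  constructor
  · intro hx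
    obtain ⟨p, hp, hf⟩ := h.rep.allNF le32 h.pc syl24_center x.2
    rw [(allL_iff _ _).mpr] at hf
    · simp only [Bool.not_true, Bool.false_or, Bool.or_eq_true] at hf
      rwa [hp.eq_iff (NRep.one le32), hp.eq_iff h.nrz] at hf
    · intro c hc
      obtain ⟨g, hg, hr⟩ := h.rep.inH c hc
      exact ((hr.ncomp hp.1).eq_iff (hp.1.ncomp hr)).mpr (congrArg Subtype.val (hx ⟨g, hg⟩))
  · rintro (hx | hx) g
    · rw [show x = 1 from Subtype.ext hx, mul_one, one_mul]
    · exact Subtype.ext (by simp [hx, h.z_comm g.2])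

variable {S : Type*} [Group S]

/-- a model of the quotient of `gen l` by its centre -/
structure QuotData (l : List (Perm GolayPt × ℕ)) (z : Perm GolayPt) (π : gen l →* S) : Prop
    extends SylData l z where
  surj : Function.Surjective π
  ker : ∀ x, π x = 1 ↔ x.1 = 1 ∨ x.1 = z

variable {π : gen l →* S}

theorem QuotData.comm_iff (h : QuotData l z π) (x y : gen l) :
    π x * π y = π y * π x ↔ CS z x y := by
  rw [← map_mul, ← map_mul, eq_comm, ← inv_mul_eq_one, ← map_inv, ← map_mul, h.ker, CS]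
  simp only [Subgroup.coe_mul, Subgroup.coe_inv]
  rw [inv_mul_eq_one, inv_mul_eq_iff_eq_mul, eq_comm]

theorem comm_of_gens (π : gen l →* S) (s : S) {m : List (Perm GolayPt × ℕ)}
    (hs : ∀ x ∈ m, ∃ hx : x.1 ∈ gen l, s * π ⟨x.1, hx⟩ = π ⟨x.1, hx⟩ * s) (y : gen l)
    (hy : y.1 ∈ gen m) : s * π y = π y * s := by
  have : gen m ≤ ((Subgroup.centralizer {s}).comap π).map (gen l).subtype := by
    refine gen_le_iff.mpr fun x hx => ?_
    obtain ⟨hx', e⟩ := hs x hx
    exact ⟨⟨x.1, hx'⟩, Subgroup.mem_centralizer_singleton_iff.mpr e.symm, rfl⟩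
  obtain ⟨y', hy', e⟩ := this hy
  rw [← Subtype.ext e]
  exact (Subgroup.mem_centralizer_singleton_iff.mp hy').symm

theorem QuotData.card_ker (h : QuotData l z π) : Nat.card π.ker = 2 := by
  have hz := gen_drop_le l 3 h.z_mem
  have : (π.ker : Set (gen l)) = {1, ⟨z, hz⟩} := by
    ext x
    simp only [SetLike.mem_coe, MonoidHom.mem_ker, h.ker, Set.mem_insert_iff,
      Set.mem_singleton_iff, Subtype.ext_iff, OneMemClass.coe_one]
  rw [← SetLike.coe_sort_coe, this, Nat.card_coe_set_eq, Set.ncard_pair]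
  exact fun e => h.z_ne (congrArg Subtype.val e).symm

theorem QuotData.card_S (h : QuotData l z π) : Nat.card S = 512 := by
  have h1 := π.ker.index_mul_card
  rw [Subgroup.index_ker, MonoidHom.range_eq_top.mpr h.surj, Subgroup.card_top, h.card_ker,
    h.card] at h1
  omega

theorem QuotData.card_comap (h : QuotData l z π) (H : Subgroup S) :
    Nat.card ((H.comap π).map (gen l).subtype) = 2 * Nat.card H := by
  rw [Subgroup.card_map_of_injective (gen l).subtype_injective]
  have h1 := (H.comap π).index_mul_card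
  have h2 := H.index_mul_card
  rw [Subgroup.index_comap_of_surjective _ h.surj, h.card] at h1
  rw [h.card_S] at h2
  have h3 : H.index ≠ 0 := by rintro h0; rw [h0] at h2; omega
  apply Nat.eq_of_mul_eq_mul_left (Nat.pos_of_ne_zero h3)
  rw [h1, mul_left_comm, h2]; norm_num

theorem QuotData.card_center_le (h : QuotData l z π) (M : Subgroup S) (hM : IsCoatom M) :
    Nat.card (Subgroup.center M) ≤ 8 := by
  have : Finite S := Nat.finite_of_card_ne_zero (by rw [h.card_S]; norm_num)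
  have hidx : M.index = 2 :=
    pg_index_of_isCoatom (IsPGroup.of_card (n := 9) (by rw [h.card_S]; norm_num)) hM
  set Z := (Subgroup.center M).map M.subtype with hZ
  have hZM : ∀ s ∈ Z, ∀ t ∈ M, s * t = t * s := by
    rintro _ ⟨s, hs, rfl⟩ t ht
    exact congrArg Subtype.val (Subgroup.mem_center_iff.mp hs ⟨t, ht⟩).symm
  have hcent : ∀ s ∈ Z, (∀ t, s * t = t * s) ∨ ∀ t, s * t = t * s ↔ t ∈ M := by
    intro s hs
    have hle : M ≤ Subgroup.centralizer {s} := fun t ht =>
      Subgroup.mem_centralizer_singleton_iff.mpr (hZM s hs t ht).symm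
    rcases hle.eq_or_lt with e | e
    · right; intro t; rw [e, Subgroup.mem_centralizer_singleton_iff, eq_comm]
    · left; intro t
      exact (Subgroup.mem_centralizer_singleton_iff.mp
        (hM.2 _ e ▸ Subgroup.mem_top t : t ∈ Subgroup.centralizer {s})).symm
  have hsmall : ∀ y : gen l, π y ∈ Z → ∃ p ∈ small24, R p y := by
    intro y hy
    obtain ⟨p, hp, hf⟩ := h.rep.allNF le32 h.pc syl24_small y.2
    rw [(allL_iff _ _).mpr] at hf
    · simp only [Bool.not_true, Bool.false_or] at hf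
      exact ⟨p, mem_of_subL hf p List.mem_cons_self, hp.1⟩
    · intro t ht
      have h1 : allL trip24 (fun t => subL [t.1, t.2] (syl24.map Prod.fst)) = true := by
        decide +kernel
      have h2 := mem_of_subL ((allL_iff _ _).mp h1 t ht)
      obtain ⟨a, ha, hra⟩ := h.rep.inH t.1 (h2 _ (by simp))
      obtain ⟨b, hb, hrb⟩ := h.rep.inH t.2 (h2 _ (by simp))
      simp only [Bool.or_eq_true]
      rw [cS_iff h.rz hp.1 hra, cS_iff h.rz hp.1 hrb, cS_iff h.rz hp.1 (hra.comp hrb)]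
      by_cases h3 : π ⟨a, ha⟩ ∈ M
      · exact Or.inl ((h.comm_iff y ⟨a, ha⟩).mp (hZM _ hy _ h3))
      by_cases h4 : π ⟨b, hb⟩ ∈ M
      · exact Or.inr (Or.inl ((h.comm_iff y ⟨b, hb⟩).mp (hZM _ hy _ h4)))
      refine Or.inr (Or.inr ((h.comm_iff y (⟨a, ha⟩ * ⟨b, hb⟩)).mp (hZM _ hy _ ?_)))
      rw [map_mul, Subgroup.mul_mem_iff_of_index_two hidx]
      exact iff_of_false h3 h4
  have hx0 : ∃ x0 : gen l, π x0 ∈ Z ∧ ∀ y : gen l, π y ∈ Z → (∀ t, π y * t = t * π y) ∨
      ∀ t, π x0 * t = t * π x0 ↔ π y * t = t * π y := by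
    by_cases hc : ∀ y : gen l, π y ∈ Z → ∀ t, π y * t = t * π y
    · exact ⟨1, by rw [map_one]; exact Z.one_mem, fun y hy => Or.inl (hc y hy)⟩
    · push Not at hc
      obtain ⟨x0, hx0, t0, ht0⟩ := hc
      refine ⟨x0, hx0, fun y hy => (hcent _ hy).imp id fun h1 t => ?_⟩
      rw [h1, (hcent _ hx0).resolve_left fun h2 => ht0 (h2 t0)]
  obtain ⟨x0, hx0, hall⟩ := hx0
  obtain ⟨p0, hp0, hr0⟩ := hsmall x0 hx0
  have hcount := Nat.le_of_ble_eq_true ((allL_iff _ _).mp small24_count p0 hp0)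
  have h2 := h.card_comap Z
  rw [hZ, Subgroup.card_map_of_injective M.subtype_injective, ← hZ, ← SetLike.coe_sort_coe,
    Nat.card_coe_set_eq] at h2
  have h3 := ncard_le_length_of_nrep (E := E) (k := 5)
    (((Z.comap π).map (gen l).subtype : Subgroup _) : Set (Perm GolayPt)) (small24.filter fun y =>
    allL (syl24.map Prod.fst) (fun g => cS y g) ||
      allL (syl24.map Prod.fst) fun g => cS p0 g == cS y g) (by
    rintro _ ⟨y, hy, rfl⟩
    obtain ⟨p, hp, hr⟩ := hsmall y hy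
    refine ⟨p, List.mem_filter.mpr ⟨hp, ?_⟩, hr⟩
    rw [Bool.or_eq_true, allL_iff, allL_iff]
    refine (hall y hy).imp (fun h4 c hc => ?_) fun h4 c hc => ?_
    · obtain ⟨g, hg, hrg⟩ := h.rep.inH c hc
      exact (cS_iff h.rz hr hrg).mpr ((h.comm_iff y ⟨g, hg⟩).mp (h4 _))
    · obtain ⟨g, hg, hrg⟩ := h.rep.inH c hc
      rw [beq_iff_eq, Bool.eq_iff_iff, cS_iff h.rz hr hrg, cS_iff h.rz hr0 hrg,
        ← h.comm_iff y ⟨g, hg⟩, ← h.comm_iff x0 ⟨g, hg⟩]
      exact h4 _)
  omega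

/-- the image of the extraspecial subgroup -/
def quotA (l : List (Perm GolayPt × ℕ)) (π : gen l →* S) : Subgroup S :=
  ((gen (l.drop 3)).subgroupOf (gen l)).map π

theorem QuotData.comap_quotA (h : QuotData l z π) :
    ((quotA l π).comap π).map (gen l).subtype = gen (l.drop 3) := by
  rw [quotA, Subgroup.comap_map_eq_self, Subgroup.map_subgroupOf_eq_of_le (gen_drop_le l 3)]
  intro x hx
  rw [Subgroup.mem_subgroupOf]
  rcases (h.ker x).mp hx with e | e <;> rw [e]
  · exact Subgroup.one_mem _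
  · exact h.z_mem

theorem QuotData.card_quotA (h : QuotData l z π) : Nat.card (quotA l π) = 64 := by
  have := h.card_comap (quotA l π)
  rw [h.comap_quotA, h.cardQ] at this
  omega

theorem QuotData.Q_facts (h : QuotData l z π) (x : gen l) (hx : x.1 ∈ gen (l.drop 3)) :
    π x * π x = 1 ∧ ∀ y : gen l, y.1 ∈ gen (l.drop 3) → π x * π y = π y * π x := by
  obtain ⟨p, hp, hf⟩ := (h.rep.drop 3).allNF le32 (h.pc.drop 3) syl24_Q hx
  rw [Bool.and_eq_true, Bool.or_eq_true, (hp.1.ncomp hp.1).eq_iff (NRep.one le32),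
    (hp.1.ncomp hp.1).eq_iff h.nrz, allL_iff] at hf
  refine ⟨by rw [← map_mul, h.ker]; exact hf.1, comm_of_gens π _ fun g hg => ?_⟩
  have hg' := gen_drop_le l 3 (mem_gen_of_mem hg)
  obtain ⟨c, hc, hr⟩ := (h.rep.drop 3).exists_code hg
  exact ⟨hg', (h.comm_iff x ⟨g.1, hg'⟩).mpr
    ((cS_iff h.rz hp.1 hr).mp (hf.2 _ (List.mem_map_of_mem hc)))⟩

theorem QuotData.ea_quotA (h : QuotData l z π) : IsElementaryAbelian 2 (quotA l π) := by
  constructor
  · refine ⟨⟨?_⟩⟩
    rintro ⟨_, x, hx, rfl⟩ ⟨_, y, hy, rfl⟩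
    exact Subtype.ext ((h.Q_facts x hx).2 y hy)
  · rintro _ ⟨x, hx, rfl⟩
    rw [pow_two]; exact (h.Q_facts x hx).1

theorem QuotData.eq_quotA (h : QuotData l z π) (B : Subgroup S) (hB : IsMulCommutative B)
    (hc : Nat.card B = 64) : B = quotA l π := by
  classical
  set B' := (B.comap π).map (gen l).subtype with hB'
  have hcB : Nat.card B' = 128 := by rw [h.card_comap, hc]
  let r : ℕ → Perm GolayPt := ev (l.take 3)
  have hr : ∀ e, r e ∈ gen l := fun e => gen_take_le l 3 (ev_mem_gen _ _)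
  let I := (Finset.range 8).filter fun e => ∃ b ∈ B', ∃ q ∈ gen (l.drop 3), b = r e * q
  have hcover : ∀ b ∈ B', ∃ e ∈ I, ∃ q ∈ gen (l.drop 3), b = r e * q := by
    intro b hb
    obtain ⟨e, -, he⟩ := h.pc.exists_ev (Subgroup.map_subtype_le _ hb)
    rw [← List.take_append_drop 3 l, ev_append, (h.rep.take 3).rad] at he
    exact ⟨_, Finset.mem_filter.mpr ⟨Finset.mem_range.mpr (Nat.mod_lt _ (by decide)),
      b, hb, _, ev_mem_gen _ _, he⟩, _, ev_mem_gen _ _, he⟩
  have hle := card_le_card_mul_of_cosets B' _ r I hcover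
  have hcomm : ∀ e ∈ I, ∀ y ∈ B' ⊓ gen (l.drop 3), CS z y (r e) := by
    intro e he y hy
    obtain ⟨_, ⟨b, hb, rfl⟩, q, hq, hbq⟩ := (Finset.mem_filter.mp he).2
    obtain ⟨⟨y, hy1, rfl⟩, hy2⟩ := hy
    have hq' := gen_drop_le l 3 hq
    have e1 : π y * π b = π b * π y :=
      congrArg Subtype.val (hB.is_comm.comm (⟨π y, hy1⟩ : B) ⟨π b, hb⟩)
    have e2 := (h.Q_facts y hy2).2 ⟨q, hq'⟩ hq
    have e3 : b = ⟨r e, hr e⟩ * ⟨q, hq'⟩ := Subtype.ext hbq
    rw [e3, map_mul, mul_assoc, ← e2, ← mul_assoc, ← mul_assoc, mul_left_inj] at e1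
    exact (h.comm_iff y ⟨r e, hr e⟩).mp e1
  have hbound : ∀ (f : ℕ → Bool), (∀ p y, NRep E 5 p y → y ∈ B' ⊓ gen (l.drop 3) → f p = true) →
      Nat.card ↥(B' ⊓ gen (l.drop 3)) ≤ cntNF 5 24 f (syl24.drop 3) (idc 5 24) := by
    intro f hf
    have := (h.rep.drop 3).ncard_le_cntNF le32 (h.pc.drop 3) hf
    rw [← SetLike.coe_sort_coe, Nat.card_coe_set_eq]
    refine le_trans (le_of_eq ?_) this
    congr 1
    ext y
    exact ⟨fun hy => ⟨hy.2, hy⟩, fun hy => hy.2⟩
  have hrr : ∀ e, R (evc 5 24 (syl24.take 3) e) (r e) := (h.rep.take 3).evc le32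
  have hI8 : I.card ≤ 8 := (Finset.card_filter_le _ _).trans (by simp)
  have hI : ∀ e ∈ I, e = 0 := by
    by_contra hne
    push Not at hne
    obtain ⟨e, he, he0⟩ := hne
    have hlt : ∀ e ∈ I, e < 8 := fun e he => Finset.mem_range.mp (Finset.mem_filter.mp he).1
    have c1 : Nat.card ↥(B' ⊓ gen (l.drop 3)) ≤ 32 := by
      have := (allLt_iff _ _).mp syl24_cnt1 e (hlt e he)
      rw [Bool.or_eq_true, force_eq, Nat.beq_eq, Nat.ble_eq] at this
      exact (hbound _ fun p y hp hy => (cS_iff h.rz hp.1 (hrr e)).mpr (hcomm e he y hy)).trans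
        (this.resolve_left he0)
    have hI4 : 4 ≤ I.card := by nlinarith
    have c2 : Nat.card ↥(B' ⊓ gen (l.drop 3)) ≤ 16 := by
      have h2 : 1 < (I.erase 0).card := by
        have := Finset.pred_card_le_card_erase (s := I) (a := 0)
        omega
      obtain ⟨a, b, ha, hb, hab⟩ := Finset.one_lt_card_iff.mp h2
      wlog hlt' : b < a generalizing a b
      · exact this b a hb ha hab.symm (by omega)
      rw [Finset.mem_erase] at ha hb
      have := (allLt_iff _ _).mp ((allLt_iff _ _).mp syl24_cnt2 a (hlt a ha.2)) b hlt'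
      rw [Bool.or_eq_true, force_eq, force_eq, Nat.beq_eq, Nat.ble_eq] at this
      refine (hbound _ fun p y hp hy => ?_).trans (this.resolve_left hb.1)
      rw [Bool.and_eq_true, cS_iff h.rz hp.1 (hrr a), cS_iff h.rz hp.1 (hrr b)]
      exact ⟨hcomm a ha.2 y hy, hcomm b hb.2 y hy⟩
    have hIeq : I = Finset.range 8 :=
      Finset.eq_of_subset_of_card_le (Finset.filter_subset _ _) (by simp; nlinarith)
    have c3 : Nat.card ↥(B' ⊓ gen (l.drop 3)) ≤ 8 := by
      refine (hbound _ fun p y hp hy => ?_).trans syl24_cnt3.le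
      rw [Bool.and_eq_true, Bool.and_eq_true, cS_iff h.rz hp.1 (hrr 1), cS_iff h.rz hp.1 (hrr 2),
        cS_iff h.rz hp.1 (hrr 4)]
      exact ⟨hcomm 1 (by simp [hIeq]) y hy, hcomm 2 (by simp [hIeq]) y hy,
        hcomm 4 (by simp [hIeq]) y hy⟩
    nlinarith
  have hBQ : B' ≤ gen (l.drop 3) := by
    intro b hb
    obtain ⟨e, he, q, hq, rfl⟩ := hcover b hb
    have : r 0 = 1 := (hrr 0).unique (by
      rw [show evc 5 24 (syl24.take 3) 0 = idc 5 24 by decide +kernel]; exact PC.Rep.one le32)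
    rw [hI e he, this, one_mul]; exact hq
  have : Finite S := Nat.finite_of_card_ne_zero (by rw [h.card_S]; norm_num)
  apply Subgroup.eq_of_le_of_card_ge _ (by rw [hc, h.card_quotA])
  intro s hs
  obtain ⟨x, rfl⟩ := h.surj s
  exact ⟨x, hBQ ⟨x, hs, rfl⟩, rfl⟩

/-- every Sylow 2-subgroup of `M24` is isomorphic to the explicit one -/
theorem SylData.nonempty_equiv (h : SylData l z) (P : Sylow 2 M24) :
    Nonempty (gen l ≃* (P : Subgroup M24)) := by
  let P0 : Sylow 2 M24 := Sylow.ofCard ((gen l).subgroupOf M24) (by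
    rw [Nat.card_congr (Subgroup.subgroupOfEquivOfLe h.le).toEquiv, h.card, card_M24,
      show 244823040 = 2 ^ 10 * 239085 by norm_num,
      Nat.factorization_mul_apply_of_coprime (by norm_num), Nat.Prime.factorization_pow Nat.prime_two,
      Nat.factorization_eq_zero_of_not_dvd (by norm_num)]
    simp)
  exact ⟨(Subgroup.subgroupOfEquivOfLe h.le).symm.trans (Sylow.equiv P0 P)⟩

end Cfsg.Lib.Golay
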